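import Mathlib

/-!
# S5764, SP4G-F2: an irreducible matrix over a finite field (helper688)

`exists_field` : the centraliser algebra of an irreducible matrix is a field of degree `card ι`.
`gen_of` : an element of a finite extension of degree four not fixed by `x ↦ x ^ (q ^ 2)` generates the extension.
`aut_four`, `star_pow` : Galois group.
-/

set_option autoImplicit false
set_option linter.unusedSectionVars false

namespace Cfsg.Agent.H688.FC

open Module Matrix

universe u

section irr

variable {ι : Type} [Fintype ι] [DecidableEq ι] {F : Type u} [Field F] [Finite F]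

/-- **the centraliser algebra of an irreducible matrix** -/
theorem exists_field [Nonempty ι] {z : Matrix ι ι F}
    (hirr : ∀ W : Submodule F (ι → F), (∀ v ∈ W, z *ᵥ v ∈ W) → W = ⊥ ∨ W = ⊤) :
    ∃ (L : Type u) (_ : Field L) (_ : Finite L) (_ : Algebra F L) (θ : L →ₐ[F] Matrix ι ι F),
      Function.Injective θ ∧ finrank F L = Fintype.card ι ∧ ∀ a : Matrix ι ι F, z * a = a * z ↔ ∃ l, θ l = a := by
  set E := Algebra.adjoin F {z} with hE
  have hcomm : ∀ a ∈ E, ∀ b ∈ E, a * b = b * a := by
    let _ : CommRing E := Algebra.adjoinCommRingOfComm F (by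
      intro a ha b hb
      rw [Set.mem_singleton_iff.1 ha, Set.mem_singleton_iff.1 hb])
    intro a ha b hb
    have h1 := mul_comm (⟨a, ha⟩ : E) ⟨b, hb⟩
    exact congrArg Subtype.val h1
  have hzE : z ∈ E := Algebra.self_mem_adjoin_singleton F z
  have hinj : ∀ a : Matrix ι ι F, z * a = a * z → ∀ v : ι → F, v ≠ 0 → a *ᵥ v = 0 → a = 0 := by
    intro a ha v hv hav
    rcases hirr (LinearMap.ker (Matrix.toLin' a)) (by
      intro w hw
      rw [LinearMap.mem_ker, Matrix.toLin'_apply] at hw ⊢
      rw [Matrix.mulVec_mulVec, ← ha, ← Matrix.mulVec_mulVec, hw, Matrix.mulVec_zero]) with h | h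
    · have h1 : v ∈ LinearMap.ker (Matrix.toLin' a) := by
        rw [LinearMap.mem_ker, Matrix.toLin'_apply, hav]
      rw [h] at h1
      exact absurd ((Submodule.mem_bot F).1 h1) hv
    · rw [LinearMap.ker_eq_top] at h
      exact Matrix.toLin'.injective (by rw [h, map_zero])
  have hsurj : ∀ v₀ : ι → F, v₀ ≠ 0 → ∀ v, ∃ a ∈ E, a *ᵥ v₀ = v := by
    intro v₀ hv₀ v
    let ev : E →ₗ[F] (ι → F) :=
      { toFun := fun a => (a : Matrix ι ι F) *ᵥ v₀
        map_add' := fun a b => Matrix.add_mulVec _ _ _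
        map_smul' := fun c a => Matrix.smul_mulVec _ _ _ }
    have h1 : LinearMap.range ev = ⊤ := by
      refine (hirr (LinearMap.range ev) ?_).resolve_left ?_
      · rintro _ ⟨a, rfl⟩
        refine ⟨⟨z * a, E.mul_mem hzE a.2⟩, ?_⟩
        exact (Matrix.mulVec_mulVec _ _ _).symm
      · intro h0
        have h2 : v₀ ∈ LinearMap.range ev := ⟨⟨1, E.one_mem⟩, Matrix.one_mulVec v₀⟩
        rw [h0] at h2
        exact hv₀ ((Submodule.mem_bot F).1 h2)
    have h2 : v ∈ LinearMap.range ev := by rw [h1]; trivial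
    obtain ⟨a, ha⟩ := h2
    exact ⟨a, a.2, ha⟩
  obtain ⟨v₀, hv₀⟩ : ∃ v₀ : ι → F, v₀ ≠ 0 := exists_ne 0
  have hmem : ∀ a : Matrix ι ι F, z * a = a * z ↔ a ∈ E := by
    intro a
    constructor
    · intro ha
      obtain ⟨b, hb, hbv⟩ := hsurj v₀ hv₀ (a *ᵥ v₀)
      have h1 : a - b = 0 := by
        refine hinj (a - b) ?_ v₀ hv₀ ?_
        · rw [mul_sub, sub_mul, ha, hcomm z hzE b hb]
        · rw [Matrix.sub_mulVec, hbv, sub_self]
      rw [sub_eq_zero.1 h1]
      exact hb
    · exact fun ha => hcomm z hzE a ha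
  have hnt : Nontrivial E := by
    refine ⟨⟨0, 1, fun h => ?_⟩⟩
    have h1 : (0 : Matrix ι ι F) = 1 := congrArg Subtype.val h
    exact zero_ne_one h1
  have hfield : IsField E :=
    { exists_pair_ne := exists_pair_ne E
      mul_comm := fun a b => Subtype.ext (hcomm a a.2 b b.2)
      mul_inv_cancel := by
        intro a ha
        have ha' : (a : Matrix ι ι F) ≠ 0 := fun h => ha (Subtype.ext h)
        have hav : (a : Matrix ι ι F) *ᵥ v₀ ≠ 0 := fun h => ha' (hinj a ((hmem _).2 a.2) v₀ hv₀ h)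
        obtain ⟨b, hb, hbv⟩ := hsurj _ hav v₀
        refine ⟨⟨b, hb⟩, Subtype.ext ?_⟩
        change (a : Matrix ι ι F) * b = 1
        have h1 : (a : Matrix ι ι F) * b - 1 = 0 := by
          refine hinj _ ?_ v₀ hv₀ ?_
          · rw [mul_sub, sub_mul, mul_one, one_mul, hcomm z hzE _ (E.mul_mem a.2 hb)]
          · rw [hcomm a a.2 b hb, Matrix.sub_mulVec, ← Matrix.mulVec_mulVec, hbv, Matrix.one_mulVec, sub_self]
        exact sub_eq_zero.1 h1 }
  refine ⟨E, hfield.toField, inferInstance, inferInstance, E.val, Subtype.val_injective, ?_, ?_⟩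
  · let ev : E →ₗ[F] (ι → F) :=
      { toFun := fun a => (a : Matrix ι ι F) *ᵥ v₀
        map_add' := fun a b => Matrix.add_mulVec _ _ _
        map_smul' := fun c a => Matrix.smul_mulVec _ _ _ }
    have h1 : Function.Bijective ev := by
      constructor
      · rw [← LinearMap.ker_eq_bot, LinearMap.ker_eq_bot']
        intro a ha
        exact Subtype.ext (hinj a ((hmem _).2 a.2) v₀ hv₀ ha)
      · intro v
        obtain ⟨a, ha, hav⟩ := hsurj v₀ hv₀ v
        exact ⟨⟨a, ha⟩, hav⟩
    have h2 := (LinearEquiv.ofBijective ev h1).finrank_eq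
    rw [Module.finrank_fintype_fun_eq_card] at h2
    exact h2
  · intro a
    rw [hmem]
    constructor
    · exact fun ha => ⟨⟨a, ha⟩, rfl⟩
    · rintro ⟨l, rfl⟩
      exact l.2

end irr

section four

variable {F : Type u} [Field F] [Finite F] {L : Type u} [Field L] [Finite L] [Algebra F L]

theorem card_L (h4 : finrank F L = 4) : Nat.card L = Nat.card F ^ 4 := by
  have : FiniteDimensional F L := Module.Finite.of_finite
  rw [Module.natCard_eq_pow_finrank (K := F) (V := L), h4]

/-- generation -/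
theorem gen_of (h4 : finrank F L = 4) {y : L} (hy : y ^ (Nat.card F ^ 2) ≠ y) (k : L) : k ∈ Algebra.adjoin F {y} := by
  have hfd : FiniteDimensional F L := Module.Finite.of_finite
  have hint : IsIntegral F y := Algebra.IsIntegral.isIntegral _
  set N := IntermediateField.adjoin F {y} with hN
  have hd : finrank F N * finrank N L = 4 := by rw [Module.finrank_mul_finrank, h4]
  have hcardN : Nat.card N = Nat.card F ^ finrank F N := Module.natCard_eq_pow_finrank (K := F)
  have hyN : y ^ (Nat.card F ^ finrank F N) = y := by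
    have hmem : y ∈ N := IntermediateField.mem_adjoin_simple_self F y
    have := Fintype.ofFinite N
    have h1 := FiniteField.pow_card (⟨y, hmem⟩ : N)
    rw [← Nat.card_eq_fintype_card, hcardN] at h1
    exact congrArg Subtype.val h1
  have hdvd : finrank F N ∣ 2 ^ 2 := Dvd.intro _ hd
  obtain ⟨i, hi, hi'⟩ := (Nat.dvd_prime_pow Nat.prime_two).1 hdvd
  have hi2 : i = 2 := by
    by_contra hne
    apply hy
    have h2 : i = 0 ∨ i = 1 := by omega
    rcases h2 with rfl | rfl
    · rw [hi', pow_zero, pow_one] at hyN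
      rw [pow_two, pow_mul, hyN, hyN]
    · rw [hi', pow_one] at hyN
      exact hyN
  have htop : N = ⊤ := by
    apply IntermediateField.eq_of_le_of_finrank_eq le_top
    rw [hi', hi2, IntermediateField.finrank_top', h4]
    norm_num
  have h1 : k ∈ N := by rw [htop]; trivial
  have h2 := IntermediateField.adjoin_simple_toSubalgebra_of_isAlgebraic (F := F) (α := y) hint.isAlgebraic
  rw [← h2]
  exact h1

/-- an involution of the field is `x ↦ x ^ (q ^ 2)` -/
theorem star_pow (h4 : finrank F L = 4) (τ : L ≃ₐ[F] L) (h2 : τ * τ = 1) (h1 : τ ≠ 1) (x : L) :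
    τ x = x ^ (Nat.card F ^ 2) := by
  have := Fintype.ofFinite F
  have hfd : FiniteDimensional F L := Module.Finite.of_finite
  obtain ⟨n, hn⟩ := (FiniteField.bijective_frobeniusAlgEquivOfAlgebraic_pow F L).2 τ
  have hord : orderOf (FiniteField.frobeniusAlgEquivOfAlgebraic F L) = 4 := by
    rw [FiniteField.orderOf_frobeniusAlgEquivOfAlgebraic, h4]
  have hn4 : n.1 < 4 := lt_of_lt_of_eq n.2 h4
  have hn' : FiniteField.frobeniusAlgEquivOfAlgebraic F L ^ n.1 = τ := hn
  have h3 : FiniteField.frobeniusAlgEquivOfAlgebraic F L ^ (n.1 + n.1) = 1 := by rw [pow_add, hn', h2]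
  have h5 : 4 ∣ n.1 + n.1 := by
    rw [← hord]
    exact orderOf_dvd_of_pow_eq_one h3
  have h6 : n.1 ≠ 0 := by
    intro h0
    rw [h0, pow_zero] at hn'
    exact h1 hn'.symm
  have h7 : n.1 = 2 := by omega
  rw [← hn', h7, pow_two, AlgEquiv.mul_apply, FiniteField.coe_frobeniusAlgEquivOfAlgebraic, Nat.card_eq_fintype_card]
  change (x ^ Fintype.card F) ^ Fintype.card F = _
  rw [← pow_mul, pow_two]

/-- the fourth power of an automorphism is trivial -/
theorem aut_four (h4 : finrank F L = 4) (τ : L ≃ₐ[F] L) : τ ^ 4 = 1 := by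
  have hfd : FiniteDimensional F L := Module.Finite.of_finite
  have h1 : Nat.card (L ≃ₐ[F] L) = 4 := by rw [IsGalois.card_aut_eq_finrank, h4]
  rw [← h1]
  exact pow_card_eq_one'

/-- an element of order `q ^ 2 + 1` -/
theorem exists_c (h4 : finrank F L = 4) : ∃ c : L, orderOf c = Nat.card F ^ 2 + 1 ∧
    ∀ x : L, x ^ (Nat.card F ^ 2 + 1) = 1 → ∃ k : ℕ, x = c ^ k := by
  have hq : 1 < Nat.card F := Finite.one_lt_card
  have hq2 : 1 < Nat.card F ^ 2 := Nat.one_lt_pow (by omega) hq
  obtain ⟨b, hb⟩ := IsCyclic.exists_ofOrder_eq_natCard (α := Lˣ)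
  have hcardu : Nat.card Lˣ = (Nat.card F ^ 2 - 1) * (Nat.card F ^ 2 + 1) := by
    rw [Nat.card_units, card_L h4]
    have h3 := Nat.sq_sub_sq (Nat.card F ^ 2) 1
    rw [one_pow, ← pow_mul] at h3
    rw [h3, mul_comm]
  have hcu : orderOf (b ^ (Nat.card F ^ 2 - 1)) = Nat.card F ^ 2 + 1 := by
    rw [orderOf_pow, hb, hcardu, Nat.gcd_eq_right (Dvd.intro _ rfl)]
    exact Nat.mul_div_cancel_left _ (by omega)
  refine ⟨(b ^ (Nat.card F ^ 2 - 1) : Lˣ), by rw [orderOf_units, hcu], ?_⟩
  intro x hx
  have hx0 : x ≠ 0 := by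
    rintro rfl
    rw [zero_pow (by omega)] at hx
    exact zero_ne_one hx
  obtain ⟨k, hk⟩ := IsPrimitiveRoot.eq_pow_of_pow_eq_one
    (ζ := ((b ^ (Nat.card F ^ 2 - 1) : Lˣ) : L)) (k := Nat.card F ^ 2 + 1) (by
      have := IsPrimitiveRoot.orderOf ((b ^ (Nat.card F ^ 2 - 1) : Lˣ) : L)
      rwa [orderOf_units, hcu] at this) hx
  exact ⟨k, hk.2.symm⟩

/-- a subring containing all powers of an element of order `q ^ 2 + 1` is everything -/
theorem subring_top (h4 : finrank F L = 4) {c : L} (hc : orderOf c = Nat.card F ^ 2 + 1) (R : Subring L) (hcR : c ∈ R)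
    (x : L) : x ∈ R := by
  have hq : 1 < Nat.card F := Finite.one_lt_card
  have hfin : Finite R := inferInstance
  let _ : Field R := (Finite.isField_of_domain R).toField
  have hfd : Module.Finite R L := Module.Finite.of_finite
  have h1 : Nat.card L = Nat.card R ^ finrank R L := Module.natCard_eq_pow_finrank (K := R) (V := L)
  have h2 : Nat.card F ^ 2 + 1 ≤ Nat.card R := by
    rw [← hc]
    let f : Fin (orderOf c) → R := fun i => ⟨c ^ (i : ℕ), R.pow_mem hcR _⟩
    have hf : Function.Injective f := by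
      intro i j hij
      have h3 : c ^ (i : ℕ) = c ^ (j : ℕ) := congrArg Subtype.val hij
      exact Fin.ext (pow_injOn_Iio_orderOf i.2 j.2 h3)
    have := Nat.card_le_card_of_injective f hf
    rwa [Nat.card_eq_fintype_card, Fintype.card_fin] at this
  have h3 : finrank R L = 1 := by
    have hpos : 0 < finrank R L := Module.finrank_pos
    by_contra hne
    have h5 : 2 ≤ finrank R L := by omega
    have h6 : Nat.card R ^ 2 ≤ Nat.card R ^ finrank R L := Nat.pow_le_pow_right (by omega) h5
    rw [← h1, card_L h4] at h6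
    have h7 : (Nat.card F ^ 2 + 1) ^ 2 ≤ Nat.card R ^ 2 := Nat.pow_le_pow_left h2 2
    nlinarith
  rw [h3, pow_one] at h1
  have h8 : Function.Surjective (Subtype.val : R → L) := by
    have h9 : Function.Bijective (Subtype.val : R → L) := by
      rw [Nat.bijective_iff_injective_and_card]
      exact ⟨Subtype.val_injective, h1.symm⟩
    exact h9.2
  obtain ⟨r, rfl⟩ := h8 x
  exact r.2

end four

end Cfsg.Agent.H688.FC
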