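import Cfsg.Agent.H319.FC.Defs
import Cfsg.Agent.H688.FC.Singer

/-!
# S5764, SP4G-F2: the torus of order `q ^ 2 + 1` of `Sp_4(q)` (helper688)
-/

set_option autoImplicit false
set_option linter.unusedSectionVars false

namespace Cfsg.Agent.H688.FC

open Module Matrix Cfsg
open Cfsg.Agent.H319.FC
open Cfsg.Agent.ClassicalGeometry.SympBasic Cfsg.Agent.ClassicalGeometry.SympAutSemi

universe u

variable {F : Type u} [Field F]

/-- the algebra of the matrices -/
abbrev M4 (F : Type u) := Matrix (Fin 2 ⊕ Fin 2) (Fin 2 ⊕ Fin 2) F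

/-- the adjoint -/
def adj (A : M4 F) : M4 F := -(Matrix.J (Fin 2) F * Aᵀ * Matrix.J (Fin 2) F)

theorem adj_form (A : M4 F) (u v : V4 F) : sympForm 2 F (A *ᵥ u) v = sympForm 2 F u (adj A *ᵥ v) := by
  have h1 : Matrix.J (Fin 2) F * adj A = Aᵀ * Matrix.J (Fin 2) F := by
    rw [adj, mul_neg, ← mul_assoc, ← mul_assoc, Matrix.J_squared]
    simp
  rw [sympForm_def, sympForm_def, Matrix.mulVec_mulVec, h1, ← Matrix.mulVec_mulVec, dotProduct_comm,
    Matrix.dotProduct_mulVec, ← Matrix.mulVec_transpose, dotProduct_comm]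

theorem adj_ext {A B : M4 F} (h : ∀ u v, sympForm 2 F u (A *ᵥ v) = sympForm 2 F u (B *ᵥ v)) : A = B := by
  apply Matrix.toLin'.injective
  apply LinearMap.ext
  intro v
  rw [Matrix.toLin'_apply, Matrix.toLin'_apply]
  exact eq_of_forall_sympForm_left fun u => h u v

theorem adj_mul (A B : M4 F) : adj (A * B) = adj B * adj A := by
  apply adj_ext
  intro u v
  rw [← adj_form, ← Matrix.mulVec_mulVec, ← Matrix.mulVec_mulVec, adj_form, adj_form]

theorem adj_one : adj (1 : M4 F) = 1 := by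
  apply adj_ext
  intro u v
  rw [← adj_form, Matrix.one_mulVec, Matrix.one_mulVec]

theorem adj_zero : adj (0 : M4 F) = 0 := by
  rw [adj, Matrix.transpose_zero, mul_zero, zero_mul, neg_zero]

theorem adj_add (A B : M4 F) : adj (A + B) = adj A + adj B := by
  rw [adj, adj, adj, Matrix.transpose_add, mul_add, add_mul, neg_add]

theorem adj_algebraMap (r : F) : adj (algebraMap F (M4 F) r) = algebraMap F (M4 F) r := by
  apply adj_ext
  intro u v
  have h : ∀ w : V4 F, algebraMap F (M4 F) r *ᵥ w = r • w := by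
    intro w
    rw [Algebra.algebraMap_eq_smul_one, Matrix.smul_mulVec, Matrix.one_mulVec]
  rw [← adj_form, h, h, sympForm_smul_left, sympForm_smul_right]

theorem adj_adj (A : M4 F) : adj (adj A) = A := by
  apply adj_ext
  intro u v
  rw [← adj_form, sympForm_swap, ← adj_form, sympForm_swap, neg_neg]

theorem adj_mul_self (x : Sp4 F) : adj (x : M4 F) * (x : M4 F) = 1 := by
  apply adj_ext
  intro u v
  rw [← Matrix.mulVec_mulVec, ← adj_form, Matrix.one_mulVec]
  exact mem_symplecticGroup_iff.1 x.2 u v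

theorem mem_of_adj {A : M4 F} (h : adj A * A = 1) : A ∈ Matrix.symplecticGroup (Fin 2) F := by
  rw [mem_symplecticGroup_iff]
  intro u v
  rw [adj_form, Matrix.mulVec_mulVec, h, Matrix.one_mulVec]

theorem inv_coe (x : Sp4 F) : ((x⁻¹ : Sp4 F) : M4 F) * (x : M4 F) = 1 ∧ (x : M4 F) * ((x⁻¹ : Sp4 F) : M4 F) = 1 := by
  constructor
  · have := congrArg (fun y : Sp4 F => (y : M4 F)) (inv_mul_cancel x)
    exact this
  · have := congrArg (fun y : Sp4 F => (y : M4 F)) (mul_inv_cancel x)
    exact this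

theorem comm_coe {x y : Sp4 F} : x * y = y * x ↔ (x : M4 F) * (y : M4 F) = (y : M4 F) * (x : M4 F) := by
  constructor
  · intro h
    exact congrArg (fun y : Sp4 F => (y : M4 F)) h
  · intro h
    exact Subtype.ext h

theorem stF2 [Finite F] [CharP F 2] : StF2 F := by
  intro z hz1 hzo hirr
  have hq : 1 < Nat.card F := Finite.one_lt_card
  have hev : Even (Nat.card F) := by
    rw [even_iff_two_dvd]
    have := Fintype.ofFinite F
    rw [← CharP.cast_eq_zero_iff F 2, Nat.card_eq_fintype_card]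
    exact Nat.cast_card_eq_zero F
  have hodd : Odd (Nat.card F ^ 2 + 1) := (hev.pow_of_ne_zero two_ne_zero).add_one
  obtain ⟨L, _, _, _, θ, hθ, hL, hcent⟩ := exists_field (z := (z : M4 F)) hirr
  have h4 : finrank F L = 4 := by
    rw [hL]
    rfl
  -- the adjoint
  have hst : ∀ l : L, ∃ l' : L, θ l' = adj (θ l) := by
    intro l
    rw [← hcent]
    have h1 : (z : M4 F) * θ l = θ l * (z : M4 F) := (hcent _).2 ⟨l, rfl⟩
    have h2 := congrArg adj h1
    rw [adj_mul, adj_mul] at h2
    have h3 := adj_mul_self z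
    have h3' : (z : M4 F) * adj (z : M4 F) = 1 := mul_eq_one_comm.1 h3
    calc (z : M4 F) * adj (θ l) = (z : M4 F) * adj (θ l) * (adj (z : M4 F) * (z : M4 F)) := by rw [h3, mul_one]
      _ = (z : M4 F) * (adj (θ l) * adj (z : M4 F)) * (z : M4 F) := by simp only [mul_assoc]
      _ = ((z : M4 F) * adj (z : M4 F)) * adj (θ l) * (z : M4 F) := by rw [h2]; simp only [mul_assoc]
      _ = adj (θ l) * (z : M4 F) := by rw [h3', one_mul]
  choose st hst using hst
  let τ₀ : L →ₐ[F] L :=
    { toFun := st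
      map_one' := hθ (by rw [hst, map_one, adj_one])
      map_mul' := fun a b => hθ (by rw [map_mul, hst, hst, hst, map_mul, adj_mul, ← hst, ← hst, ← map_mul, ← map_mul, mul_comm])
      map_zero' := hθ (by rw [hst, map_zero, adj_zero])
      map_add' := fun a b => hθ (by rw [map_add, hst, hst, hst, map_add, adj_add])
      commutes' := fun r => hθ (by rw [hst, θ.commutes, adj_algebraMap]) }
  have hτ₀ : ∀ l, τ₀ (τ₀ l) = l := by
    intro l
    apply hθ
    change θ (st (st l)) = θ l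
    rw [hst, hst, adj_adj]
  let τ : L ≃ₐ[F] L := AlgEquiv.ofAlgHom τ₀ τ₀ (AlgHom.ext hτ₀) (AlgHom.ext hτ₀)
  have hτ : ∀ l, τ l = st l := fun _ => rfl
  obtain ⟨ζ, hζ⟩ := (hcent (z : M4 F)).1 rfl
  have hττ : τ * τ = 1 := AlgEquiv.ext hτ₀
  have hτ1 : τ ≠ 1 := by
    intro h0
    have h1 : st ζ = ζ := by rw [← hτ, h0]; rfl
    have h2 : adj (z : M4 F) = (z : M4 F) := by rw [← hζ, ← hst, h1]
    have h3 := adj_mul_self z
    rw [h2] at h3
    have h4 : z * z = 1 := Subtype.ext h3
    have h5 : orderOf z ∣ 2 := orderOf_dvd_of_pow_eq_one (by rw [pow_two, h4])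
    rcases (Nat.dvd_prime Nat.prime_two).1 h5 with h6 | h6
    · exact hz1 (orderOf_eq_one_iff.1 h6)
    · rw [h6] at hzo
      exact absurd hzo (by decide)
  have hstp : ∀ l, st l = l ^ (Nat.card F ^ 2) := fun l => star_pow h4 τ hττ hτ1 l
  have hunit : ∀ l : L, adj (θ l) * θ l = 1 ↔ l ^ (Nat.card F ^ 2 + 1) = 1 := by
    intro l
    rw [← hst, ← map_mul, hstp, ← pow_succ, ← map_one θ]
    exact hθ.eq_iff
  obtain ⟨c₀, hc₀, hc₀'⟩ := exists_c h4
  have hc₀1 : c₀ ^ (Nat.card F ^ 2 + 1) = 1 := by rw [← hc₀]; exact pow_orderOf_eq_one c₀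
  let c : Sp4 F := ⟨θ c₀, mem_of_adj ((hunit c₀).2 hc₀1)⟩
  have hc : (c : M4 F) = θ c₀ := rfl
  have hcpow : ∀ k : ℕ, ((c ^ k : Sp4 F) : M4 F) = θ (c₀ ^ k) := by
    intro k
    rw [SubmonoidClass.coe_pow, hc, map_pow]
  have hc1 : c ^ (Nat.card F ^ 2 + 1) = 1 := by
    apply Subtype.ext
    rw [hcpow, hc₀1, map_one]
    rfl
  -- elements commuting with `z`
  have hmem : ∀ x : Sp4 F, (z : M4 F) * (x : M4 F) = (x : M4 F) * (z : M4 F) →
      ∃ l : L, θ l = (x : M4 F) ∧ l ^ (Nat.card F ^ 2 + 1) = 1 ∧ x ∈ Subgroup.zpowers c := by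
    intro x hx
    obtain ⟨l, hl⟩ := (hcent _).1 hx
    have h1 : l ^ (Nat.card F ^ 2 + 1) = 1 := by
      rw [← hunit, hl]
      exact adj_mul_self x
    obtain ⟨k, rfl⟩ := hc₀' l h1
    refine ⟨_, hl, h1, ?_⟩
    have h2 : x = c ^ k := Subtype.ext (by rw [hcpow, hl])
    rw [h2]
    exact Subgroup.pow_mem _ (Subgroup.mem_zpowers c) k
  have hczp : ∀ y ∈ Subgroup.zpowers c, (z : M4 F) * (y : M4 F) = (y : M4 F) * (z : M4 F) := by
    intro y hy
    have h1 : z * c = c * z := comm_coe.2 ((hcent _).2 ⟨c₀, rfl⟩)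
    obtain ⟨k, rfl⟩ := hy
    exact comm_coe.1 (Commute.zpow_right h1 k)
  -- nontrivial elements of the torus
  have hgen : ∀ y ∈ Subgroup.zpowers c, y ≠ 1 → ∀ a : M4 F, (y : M4 F) * a = a * (y : M4 F) →
      (z : M4 F) * a = a * (z : M4 F) := by
    intro y hy hy1 a ha
    obtain ⟨l, hl, hl1, -⟩ := hmem y (hczp y hy)
    have hl0 : l ≠ 1 := by
      rintro rfl
      apply hy1
      apply Subtype.ext
      rw [← hl, map_one]
      rfl
    have hl2 : l ^ (Nat.card F ^ 2) ≠ l := by
      intro h0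
      rw [pow_succ, h0, ← pow_two] at hl1
      have hl1' : l ^ (Nat.card F ^ 2 + 1) = 1 := by rw [pow_succ, h0, ← pow_two, hl1]
      have h2 : orderOf l ∣ 2 := orderOf_dvd_of_pow_eq_one hl1
      have h3 : orderOf l ∣ Nat.card F ^ 2 + 1 := orderOf_dvd_of_pow_eq_one hl1'
      rcases (Nat.dvd_prime Nat.prime_two).1 h2 with h6 | h6
      · exact hl0 (orderOf_eq_one_iff.1 h6)
      · rw [h6] at h3
        have h7 := Odd.of_dvd_nat hodd h3
        exact absurd h7 (by decide)
    have key : ∀ k ∈ Algebra.adjoin F {l}, θ k * a = a * θ k := by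
      intro k hk
      induction hk using Algebra.adjoin_induction with
      | mem x hx =>
        rw [Set.mem_singleton_iff.1 hx, hl]
        exact ha
      | algebraMap r =>
        rw [θ.commutes]
        exact Algebra.commutes r a
      | add x y _ _ h1 h2 => rw [map_add, add_mul, mul_add, h1, h2]
      | mul x y _ _ h1 h2 => rw [map_mul, mul_assoc, h2, ← mul_assoc, h1, mul_assoc]
    rw [← hζ]
    exact key ζ (gen_of h4 hl2 ζ)
  have hzc : Subgroup.centralizer {z} = Subgroup.zpowers c := by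
    ext x
    rw [Subgroup.mem_centralizer_singleton_iff, comm_coe]
    constructor
    · intro h
      exact (hmem x (by first | exact h | exact h.symm)).choose_spec.2.2
    · intro h
      have := hczp x h
      first | exact this | exact this.symm
  refine ⟨c, hzc, Odd.of_dvd_nat hodd (orderOf_dvd_of_pow_eq_one hc1), ?_, ?_, ?_⟩
  · intro y hy hy1
    ext x
    rw [Subgroup.mem_centralizer_singleton_iff]
    constructor
    · intro h
      have h1 : (y : M4 F) * (x : M4 F) = (x : M4 F) * (y : M4 F) := by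
        first | exact comm_coe.1 h | exact (comm_coe.1 h).symm
      obtain ⟨-, -, -, h2⟩ := hmem x (hgen y hy hy1 _ h1)
      exact h2
    · intro h
      have h1 : y * x = x * y := by
        obtain ⟨i, rfl⟩ := hy
        obtain ⟨k, rfl⟩ := h
        exact (zpow_mul_comm c i k)
      first | exact h1 | exact h1.symm
  · intro n hn
    have hcne : c ≠ 1 := by
      intro h0
      have h1 : θ c₀ = θ 1 := by rw [map_one, ← hc, h0]; rfl
      have h2 := hθ h1
      rw [h2, orderOf_one] at hc₀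
      have : 0 < Nat.card F ^ 2 := Nat.pow_pos (by omega)
      omega
    have hy' := hn c (Subgroup.mem_zpowers c)
    have hy'1 : n * c * n⁻¹ ≠ 1 := by
      intro h0
      apply hcne
      have : c = n⁻¹ * (n * c * n⁻¹) * n := by group
      rw [this, h0, mul_one, inv_mul_cancel]
    obtain ⟨i1, i2⟩ := inv_coe n
    have hcj : ∀ l : L, ∃ l' : L, θ l' = (n : M4 F) * θ l * ((n⁻¹ : Sp4 F) : M4 F) := by
      intro l
      rw [← hcent]
      refine hgen _ hy' hy'1 _ ?_
      change ((n : M4 F) * θ c₀ * ((n⁻¹ : Sp4 F) : M4 F)) * _ = _ * ((n : M4 F) * θ c₀ * ((n⁻¹ : Sp4 F) : M4 F))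
      have h1 : ∀ a b : M4 F, ((n : M4 F) * a * ((n⁻¹ : Sp4 F) : M4 F)) * ((n : M4 F) * b * ((n⁻¹ : Sp4 F) : M4 F)) =
          (n : M4 F) * (a * b) * ((n⁻¹ : Sp4 F) : M4 F) := by
        intro a b
        calc _ = (n : M4 F) * a * (((n⁻¹ : Sp4 F) : M4 F) * (n : M4 F)) * b * ((n⁻¹ : Sp4 F) : M4 F) := by
              simp only [mul_assoc]
          _ = _ := by rw [i1, mul_one]; simp only [mul_assoc]
      rw [h1, h1, ← map_mul, ← map_mul, mul_comm]
    choose cn hcn using hcj
    have h1 : ∀ a b : M4 F, ((n : M4 F) * a * ((n⁻¹ : Sp4 F) : M4 F)) * ((n : M4 F) * b * ((n⁻¹ : Sp4 F) : M4 F)) =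
        (n : M4 F) * (a * b) * ((n⁻¹ : Sp4 F) : M4 F) := by
      intro a b
      calc _ = (n : M4 F) * a * (((n⁻¹ : Sp4 F) : M4 F) * (n : M4 F)) * b * ((n⁻¹ : Sp4 F) : M4 F) := by
            simp only [mul_assoc]
        _ = _ := by rw [i1, mul_one]; simp only [mul_assoc]
    let κ₀ : L →ₐ[F] L :=
      { toFun := cn
        map_one' := hθ (by rw [hcn, map_one, mul_one, i2])
        map_mul' := fun a b => hθ (by rw [map_mul, hcn, hcn, hcn, map_mul, h1])
        map_zero' := hθ (by rw [hcn, map_zero, mul_zero, zero_mul])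
        map_add' := fun a b => hθ (by rw [map_add, hcn, hcn, hcn, map_add, mul_add, add_mul])
        commutes' := fun r => hθ (by rw [hcn, θ.commutes, ← Algebra.commutes, mul_assoc, i2, mul_one]) }
    let κ : L ≃ₐ[F] L := AlgEquiv.ofBijective κ₀ (Finite.injective_iff_bijective.1 κ₀.toRingHom.injective)
    have hκ : ∀ l, θ (κ l) = (n : M4 F) * θ l * ((n⁻¹ : Sp4 F) : M4 F) := hcn
    have hκp : ∀ (k : ℕ) (l : L), θ ((κ ^ k) l) = ((n ^ k : Sp4 F) : M4 F) * θ l * (((n ^ k)⁻¹ : Sp4 F) : M4 F) := by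
      intro k
      induction k with
      | zero =>
        intro l
        rw [pow_zero, pow_zero, inv_one, AlgEquiv.one_apply]
        change θ l = 1 * θ l * 1
        rw [one_mul, mul_one]
      | succ k ih =>
        intro l
        rw [pow_succ, AlgEquiv.mul_apply, ih, hκ, pow_succ, _root_.mul_inv_rev]
        change _ = ((n ^ k : Sp4 F) : M4 F) * (n : M4 F) * θ l * (((n⁻¹ : Sp4 F) : M4 F) * (((n ^ k)⁻¹ : Sp4 F) : M4 F))
        simp only [mul_assoc]
    have h5 := hκp 4 ζ
    rw [aut_four h4, AlgEquiv.one_apply, hζ] at h5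
    obtain ⟨j1, j2⟩ := inv_coe (n ^ 4)
    have h6 : (z : M4 F) * ((n ^ 4 : Sp4 F) : M4 F) = ((n ^ 4 : Sp4 F) : M4 F) * (z : M4 F) := by
      nth_rewrite 1 [h5]
      rw [mul_assoc, j1, mul_one]
    obtain ⟨-, -, -, h7⟩ := hmem _ h6
    exact h7
  · intro g φ l hl hg hgc a
    have h1 : ∀ v, g.1 ((c : M4 F) *ᵥ v) = (c : M4 F) *ᵥ g.1 v := by
      intro v
      have h2 := rho_conjHom g c
      rw [hgc] at h2
      have h3 := DFunLike.congr_fun h2 (g.1 v)
      have h4 : g.1⁻¹ (g.1 v) = v := g.1.symm_apply_apply v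
      rw [Equiv.Perm.mul_apply, Equiv.Perm.mul_apply, h4, rho_apply, rho_apply] at h3
      exact h3.symm
    have hg0 : g.1 0 = 0 := by
      have h2 := hg.1 0 0
      rw [add_zero] at h2
      exact (left_eq_add.1 h2)
    have hgneg : ∀ v, g.1 (-v) = -g.1 v := by
      intro v
      have h2 := hg.1 (-v) v
      rw [neg_add_cancel, hg0] at h2
      exact eq_neg_of_add_eq_zero_left h2.symm
    let R : Subring L :=
      { carrier := {k | ∀ v, g.1 (θ k *ᵥ v) = θ k *ᵥ g.1 v}
        mul_mem' := by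
          intro a b ha hb v
          rw [map_mul, ← Matrix.mulVec_mulVec, ha, hb, Matrix.mulVec_mulVec]
        one_mem' := by
          intro v
          rw [map_one, Matrix.one_mulVec, Matrix.one_mulVec]
        add_mem' := by
          intro a b ha hb v
          rw [map_add, Matrix.add_mulVec, hg.1, ha, hb, Matrix.add_mulVec]
        zero_mem' := by
          intro v
          rw [map_zero, Matrix.zero_mulVec, Matrix.zero_mulVec, hg0]
        neg_mem' := by
          intro a ha v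
          rw [map_neg, Matrix.neg_mulVec, Matrix.neg_mulVec, hgneg, ha] }
    have hR := subring_top h4 hc₀ R h1 (algebraMap F L a)
    obtain ⟨v, hv⟩ : ∃ v : V4 F, v ≠ 0 := exists_ne 0
    have h2 := hR v
    have h3 : ∀ w : V4 F, algebraMap F (M4 F) a *ᵥ w = a • w := by
      intro w
      rw [Algebra.algebraMap_eq_smul_one, Matrix.smul_mulVec, Matrix.one_mulVec]
    rw [θ.commutes, h3, h3, hg.2.1] at h2
    have hgv : g.1 v ≠ 0 := by
      intro h0
      apply hv
      apply g.1.injective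
      rw [h0, hg0]
    rw [← sub_eq_zero, ← sub_smul] at h2
    exact sub_eq_zero.1 ((smul_eq_zero.1 h2).resolve_right hgv)

end Cfsg.Agent.H688.FC
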